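import Mathlib
import Cfsg.Agent.PGroup.Extraspecial
import Cfsg.Agent.Char.Kernel
import Cfsg.Agent.Char.Linear
import Cfsg.Agent.Char.Virtual

/-!
# Class functions on extraspecial groups with a nontrivial central character
-/

set_option autoImplicit false
set_option linter.style.haveILetI false

noncomputable section

namespace Cfsg.Agent.CharDeep

open scoped ComplexConjugate commutatorElement

universe u

variable {P : Type u} [Group P] {p : ℕ}

/-- A class function scaled by a nontrivial central character vanishes off the centre. -/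
theorem extraspecial_eq_zero [Finite P] [Fact p.Prime] (hP : Cfsg.IsExtraspecial p P) {f : P → ℂ}
    (hf : Cfsg.IsClassFunction P f) (w : P → ℂ)
    (hw : ∀ z ∈ Subgroup.center P, ∀ x, f (z * x) = w z * f x)
    {z₀ : P} (hz₀ : z₀ ∈ Subgroup.center P) (hne : w z₀ ≠ 1) {x : P}
    (hx : x ∉ Subgroup.center P) : f x = 0 := by
  classical
  by_contra hfx
  obtain ⟨y, hy⟩ : ∃ y : P, y * x ≠ x * y := by
    by_contra h
    push Not at h
    exact hx (Subgroup.mem_center_iff.2 h)
  set c := ⁅y, x⁆ with hc
  have hcz : c ∈ Subgroup.center P := PGroup.special_commutatorElement_mem hP.1 y x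
  have hc1 : c ≠ 1 := fun h => hy (commutatorElement_eq_one_iff_mul_comm.1 h)
  have hwc : w c = 1 := by
    have h1 : f (c * x) = f x := by
      rw [show c * x = y * x * y⁻¹ by simp [c, commutatorElement_def, mul_assoc]]
      exact hf x y
    rw [hw c hcz] at h1
    exact (mul_eq_right₀ hfx).1 h1
  have hpow : ∀ j : ℕ, w (c ^ j) = 1 := by
    intro j
    induction j with
    | zero =>
      have h1 := hw 1 (Subgroup.one_mem _) x
      rw [one_mul] at h1
      rw [pow_zero]
      exact (mul_eq_right₀ hfx).1 h1.symm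
    | succ j ih =>
      have h1 := hw (c ^ (j + 1)) (Subgroup.pow_mem _ hcz _) x
      rw [pow_succ', mul_assoc, hw c hcz, hw _ (Subgroup.pow_mem _ hcz _), ih, hwc, one_mul,
        one_mul, ← pow_succ'] at h1
      exact (mul_eq_right₀ hfx).1 h1.symm
  rw [PGroup.extraspecial_center_eq_zpowers hP hcz hc1, mem_zpowers_iff_mem_range_orderOf] at hz₀
  simp only [Finset.mem_image, Finset.mem_range] at hz₀
  obtain ⟨j, -, rfl⟩ := hz₀
  exact hne (hpow j)

/-- The norm of such a function. -/
theorem extraspecial_norm [Fintype P] [Fact p.Prime] (hP : Cfsg.IsExtraspecial p P) {f : P → ℂ}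
    (hf : Cfsg.IsClassFunction P f) (w : P → ℂ)
    (hw : ∀ z ∈ Subgroup.center P, ∀ x, f (z * x) = w z * f x)
    (hnorm : ∀ z ∈ Subgroup.center P, ‖w z‖ = 1)
    {z₀ : P} (hz₀ : z₀ ∈ Subgroup.center P) (hne : w z₀ ≠ 1) :
    (Nat.card P : ℂ) * Cfsg.classInner f f = (p : ℂ) * (f 1 * conj (f 1)) := by
  classical
  rw [Cfsg.classInner, mul_inv_cancel_left₀ (Nat.cast_ne_zero.2 Nat.card_pos.ne'),
    ← Finset.sum_subset (Finset.subset_univ (Finset.univ.filter fun x : P => x ∈ Subgroup.center P))
      (fun x _ hx => by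
        rw [extraspecial_eq_zero hP hf w hw hz₀ hne (fun h => hx (by simp [h])), zero_mul])]
  have h1 : ∀ x ∈ Finset.univ.filter (fun x : P => x ∈ Subgroup.center P),
      f x * conj (f x) = f 1 * conj (f 1) := by
    intro x hx
    have hx' := (Finset.mem_filter.1 hx).2
    have h := hw x hx' 1
    rw [mul_one] at h
    rw [h, map_mul, show w x * f 1 * (conj (w x) * conj (f 1)) =
      w x * conj (w x) * (f 1 * conj (f 1)) by ring, Complex.mul_conj', hnorm x hx']
    simp
  rw [Finset.sum_congr rfl h1, Finset.sum_const, nsmul_eq_mul, ← Fintype.card_subtype,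
    ← Nat.card_eq_fintype_card]
  congr 2
  exact hP.2

/-- Degrees of irreducible characters of an extraspecial group. -/
theorem extraspecial_degree [Finite P] [Fact p.Prime] {n : ℕ} (hP : Cfsg.IsExtraspecial p P)
    (hcard : Nat.card P = p ^ (2 * n + 1)) {χ : P → ℂ} (hχ : Cfsg.IsIrrCharacter P χ) :
    χ 1 = 1 ∨ χ 1 = (p : ℂ) ^ n := by
  classical
  let _ : Fintype P := Fintype.ofFinite P
  have hc := fun z (hz : z ∈ Subgroup.center P) => Char.irr_mul_center hχ hz
  choose w0 hw1 hw2 hw3 using hc
  let w : P → ℂ := fun z => if h : z ∈ Subgroup.center P then w0 z h else 1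
  by_cases htriv : ∀ z ∈ Subgroup.center P, χ z = χ 1
  · refine Or.inl ?_
    haveI : (Subgroup.center P).Normal := inferInstance
    obtain ⟨ψ, hψ, hψχ⟩ := Char.irr_exists_descend hχ (Subgroup.center P) htriv
    have hcomm : ∀ a b : P ⧸ Subgroup.center P, a * b = b * a := by
      intro a b
      obtain ⟨a, rfl⟩ := QuotientGroup.mk_surjective a
      obtain ⟨b, rfl⟩ := QuotientGroup.mk_surjective b
      rw [← QuotientGroup.mk_mul, ← QuotientGroup.mk_mul, QuotientGroup.eq]
      have := PGroup.special_commutatorElement_mem hP.1 b⁻¹ a⁻¹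
      simpa [commutatorElement_def, mul_assoc] using this
    rw [hψχ 1]
    exact Char.irr_degree_one_of_comm hcomm hψ
  · refine Or.inr ?_
    push Not at htriv
    obtain ⟨z₀, hz₀, hne⟩ := htriv
    have hw : ∀ z ∈ Subgroup.center P, ∀ x, χ (z * x) = w z * χ x := fun z hz x => by
      simp only [w, dif_pos hz]; exact hw3 z hz x
    have hnorm : ∀ z ∈ Subgroup.center P, ‖w z‖ = 1 := fun z hz => by
      simp only [w, dif_pos hz]
      exact Complex.norm_eq_one_of_pow_eq_one (hw1 z hz) (orderOf_pos z).ne'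
    have hwne : w z₀ ≠ 1 := by
      simp only [w, dif_pos hz₀]
      intro h
      exact hne (by rw [hw2 z₀ hz₀, h, one_mul])
    have h := extraspecial_norm hP (Char.irr_isClassFunction hχ) w hw hnorm hz₀ hwne
    obtain ⟨d, hd, he⟩ := Char.irr_one_pos hχ
    rw [Char.classInner_irr_self hχ, mul_one, he, Complex.conj_natCast, hcard] at h
    have h' : p ^ (2 * n + 1) = p * (d * d) := by exact_mod_cast h
    rw [pow_succ', two_mul, pow_add] at h'
    have h2 := Nat.eq_of_mul_eq_mul_left (Fact.out : p.Prime).pos h'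
    rw [he]
    have : d = p ^ n := (Nat.mul_self_inj.1 h2).symm
    rw [this, Nat.cast_pow]

end Cfsg.Agent.CharDeep
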